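import Mathlib

/-!
# General lemmas on prime-order Sylow subgroups (simple groups of order 175560)
-/

set_option autoImplicit false

namespace Cfsg.Agent.Lib.U175

open Subgroup

section Gen

variable {X : Type*} [Group X] [Finite X]

theorem sylow_card_prime' {q m : ℕ} [hq : Fact q.Prime]
    (hc : Nat.card X = q * m) (hm : ¬ q ∣ m) (P : Sylow q X) : Nat.card (P : Subgroup X) = q := by
  obtain ⟨k, hk⟩ := IsPGroup.iff_card.1 P.isPGroup'
  have h1 := Subgroup.card_mul_index (P : Subgroup X)
  have h2 := P.not_dvd_index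
  rw [hk, hc] at h1
  rcases k with _ | _ | k
  · simp only [pow_zero, one_mul] at h1
    exact absurd (h1 ▸ dvd_mul_right q m) h2
  · simpa using hk
  · exfalso
    apply hm
    have h3 : q * (q ^ (k + 1) * (P : Subgroup X).index) = q * m := by rw [← h1]; ring
    have h4 := Nat.eq_of_mul_eq_mul_left hq.out.pos h3
    exact ⟨q ^ k * (P : Subgroup X).index, by rw [← h4]; ring⟩

theorem exists_sylow_eq {p m : ℕ} [hp : Fact p.Prime] (hc : Nat.card X = p * m) (hm : ¬ p ∣ m)
    (P : Subgroup X) (hP : Nat.card P = p) : ∃ S : Sylow p X, (S : Subgroup X) = P := by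
  have hpg : IsPGroup p P := IsPGroup.of_card (n := 1) (by simpa using hP)
  obtain ⟨S, hS⟩ := hpg.exists_le_sylow
  refine ⟨S, ?_⟩
  symm
  apply Subgroup.eq_of_le_of_card_ge hS
  rw [sylow_card_prime' hc hm S, hP]

theorem index_mod {p m : ℕ} [hp : Fact p.Prime] (hc : Nat.card X = p * m) (hm : ¬ p ∣ m)
    (P : Subgroup X) (hP : Nat.card P = p) : (normalizer (P : Set X)).index % p = 1 := by
  obtain ⟨S, rfl⟩ := exists_sylow_eq hc hm P hP
  have h1 := card_sylow_modEq_one p X
  have h2 := Sylow.card_eq_index_normalizer S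
  rw [h2] at h1
  have hp2 := hp.out.two_le
  rw [Nat.ModEq, Nat.mod_eq_of_lt (by omega : 1 < p)] at h1
  exact h1

/-- `|N(P)|` divides `|C(P)|(p-1)`. -/
theorem card_norm_dvd {p : ℕ} [hp : Fact p.Prime] (P : Subgroup X) (hP : Nat.card P = p) :
    Nat.card (normalizer (P : Set X)) ∣ Nat.card (centralizer (P : Set X)) * (p - 1) := by
  haveI : IsCyclic P := isCyclic_of_prime_card hP
  let f := P.normalizerMonoidHom
  have h1 := Subgroup.card_mul_index f.ker
  have h2 : f.ker.index = Nat.card f.range := Subgroup.index_ker f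
  have h3 : Nat.card f.range ∣ Nat.card (MulAut P) := Subgroup.card_subgroup_dvd_card _
  have h4 : Nat.card (MulAut P) = p - 1 := by
    rw [IsCyclic.card_mulAut, hP, Nat.totient_prime hp.out]
  have h5 : Nat.card f.ker = Nat.card (centralizer (P : Set X)) := by
    have h6 : f.ker = (centralizer (P : Set X)).subgroupOf (normalizer (P : Set X)) :=
      normalizerMonoidHom_ker P
    rw [h6]
    have h7 : centralizer (P : Set X) ≤ normalizer (P : Set X) := centralizer_le_normalizer _
    exact Nat.card_congr (subgroupOfEquivOfLe h7).toEquiv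
  rw [← h1, h5, h2]
  exact Nat.mul_dvd_mul_left _ (h4 ▸ h3)

theorem card_cent_dvd_norm (P : Subgroup X) :
    Nat.card (centralizer (P : Set X)) ∣ Nat.card (normalizer (P : Set X)) :=
  Subgroup.card_dvd_of_le (centralizer_le_normalizer _)

/-- Burnside: in a simple group a prime-order Sylow subgroup is not central in its normalizer. -/
theorem cent_ne_norm [IsSimpleGroup X] {p m : ℕ} [hp : Fact p.Prime] (hc : Nat.card X = p * m)
    (hm : ¬ p ∣ m) (hm1 : m ≠ 1) (P : Subgroup X) (hP : Nat.card P = p) :
    Nat.card (centralizer (P : Set X)) ≠ Nat.card (normalizer (P : Set X)) := by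
  intro he
  obtain ⟨S, rfl⟩ := exists_sylow_eq hc hm P hP
  have hle : normalizer ((S : Subgroup X) : Set X) ≤ centralizer ((S : Subgroup X) : Set X) := by
    have h7 : centralizer ((S : Subgroup X) : Set X) ≤ normalizer ((S : Subgroup X) : Set X) :=
      centralizer_le_normalizer _
    exact (Subgroup.eq_of_le_of_card_ge h7 (by rw [he])).ge
  have hcomp := MonoidHom.ker_transferSylow_isComplement' S hle
  have hcard := hcomp.card_mul_card
  have hn : (MonoidHom.transferSylow S hle).ker.Normal := MonoidHom.normal_ker _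
  rcases IsSimpleGroup.eq_bot_or_eq_top_of_normal _ hn with h | h
  · rw [h, hP, hc] at hcard
    have hm0 : 0 < p := hp.out.pos
    simp only [Subgroup.card_bot, one_mul] at hcard
    apply hm1
    exact Nat.eq_of_mul_eq_mul_left hm0 (by rw [mul_one]; exact hcard.symm)
  · rw [h, hP, Subgroup.card_top, hc] at hcard
    have hm0 : 0 < p * m := by rw [← hc]; exact Nat.card_pos
    have hp1 := hp.out.one_lt
    nlinarith

/-- A normalizer of a proper nontrivial subgroup of a simple group is proper. -/
theorem norm_ne_top [IsSimpleGroup X] (P : Subgroup X) (h1 : P ≠ ⊥) (h2 : P ≠ ⊤) :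
    normalizer (P : Set X) ≠ ⊤ := by
  intro h
  have hn : P.Normal := by
    constructor
    intro n hn g
    have hg : g ∈ normalizer (P : Set X) := by rw [h]; exact mem_top g
    have := (mem_normalizer_iff.1 hg n).1
    exact this hn
  rcases IsSimpleGroup.eq_bot_or_eq_top_of_normal P hn with h | h
  · exact h1 h
  · exact h2 h

theorem exists_order_of_dvd {q : ℕ} [hq : Fact q.Prime] (H : Subgroup X) (h : q ∣ Nat.card H) :
    ∃ y ∈ H, orderOf y = q := by
  obtain ⟨y, hy⟩ := exists_prime_orderOf_dvd_card' q h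
  exact ⟨y, y.2, by rwa [Subgroup.orderOf_coe]⟩

end Gen

end Cfsg.Agent.Lib.U175
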