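import Cfsg.Agent.Lib.U175.Gen

/-!
# Permutation action on Sylow subgroups of prime order
-/

set_option autoImplicit false

namespace Cfsg.Agent.Lib.U175

open Subgroup

section Gen

variable {X : Type*} [Group X] [Finite X]

theorem zpow_gen {y : X} {q : ℕ} [hq : Fact q.Prime] (hy : orderOf y = q) {i : ℤ} (hi : y ^ i ≠ 1) :
    ∃ u : ℤ, (y ^ i) ^ u = y := by
  have h1 : ¬ (q : ℤ) ∣ i := by
    intro h
    apply hi
    rw [← orderOf_dvd_iff_zpow_eq_one, hy]
    exact h
  have h2 : IsCoprime (q : ℤ) i := by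
    rw [Int.isCoprime_iff_gcd_eq_one]
    have := (Nat.Prime.coprime_iff_not_dvd hq.out).2 (by
      intro h3
      apply h1
      exact Int.natCast_dvd.2 h3 : ¬ q ∣ i.natAbs)
    simpa [Int.gcd] using this
  obtain ⟨a, b, hab⟩ := h2
  refine ⟨b, ?_⟩
  have h3 : y ^ (q : ℤ) = 1 := by rw [← hy, zpow_natCast, pow_orderOf_eq_one]
  have h4 : y ^ (a * (q : ℤ)) = 1 := by rw [mul_comm, zpow_mul, h3, one_zpow]
  calc (y ^ i) ^ b = y ^ (b * i) := by rw [← zpow_mul, mul_comm]
    _ = y ^ (a * q + b * i) := by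
        rw [zpow_add, h4, one_mul]
    _ = y := by rw [hab, zpow_one]

/-- If `y` of prime order `q` centralizes a Sylow subgroup `P` of prime order `p` with
`n_p = 1 + p a`, `a < q`, then `G` is not simple. -/
theorem comm_fix [IsSimpleGroup X] {p q m a : ℕ} [hp : Fact p.Prime] [hq : Fact q.Prime]
    (hc : Nat.card X = p * m) (hm : ¬ p ∣ m) (hpq : p ≠ q) (P : Subgroup X) (hP : Nat.card P = p)
    (hn : (normalizer (P : Set X)).index = 1 + p * a) (hqa : a < q)
    (hnt : normalizer (P : Set X) ≠ ⊤)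
    {y : X} (hy : orderOf y = q) (hyc : y ∈ centralizer (P : Set X)) : False := by
  classical
  obtain ⟨S₀, rfl⟩ := exists_sylow_eq hc hm P hP
  haveI : IsCyclic (S₀ : Subgroup X) := isCyclic_of_prime_card hP
  obtain ⟨g', hg'⟩ := IsCyclic.exists_generator (α := (S₀ : Subgroup X))
  set g : X := (g' : X) with hgdef
  have hgS : g ∈ (S₀ : Subgroup X) := g'.2
  have hog : orderOf g = p := by
    rw [hgdef, Subgroup.orderOf_coe, orderOf_eq_card_of_forall_mem_zpowers hg', hP]
  have hgy : g * y = y * g := by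
    have := (mem_centralizer_iff.1 hyc) g hgS
    exact this
  have hcomm : Commute g y := hgy
  have hcop : Nat.Coprime (orderOf g) (orderOf y) := by
    rw [hog, hy]
    exact (Nat.coprime_primes hp.out hq.out).2 hpq
  set z := g * y with hz
  have hoz : orderOf z = p * q := by
    rw [hz, hcomm.orderOf_mul_eq_mul_orderOf_of_coprime hcop, hog, hy]
  have hyN : y ∈ normalizer ((S₀ : Subgroup X) : Set X) := centralizer_le_normalizer _ hyc
  have hyS : y • S₀ = S₀ := (Sylow.smul_eq_iff_mem_normalizer).2 hyN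
  have hgS' : g • S₀ = S₀ :=
    (Sylow.smul_eq_iff_mem_normalizer).2 (le_normalizer hgS)
  have hzS : z • S₀ = S₀ := by rw [hz, mul_smul, hyS, hgS']
  -- y fixes all points
  have key : ∀ ω : Sylow p X, y • ω = ω := by
    intro ω
    by_cases hω : ω = S₀
    · subst hω; exact hyS
    -- the stabilizer of `ω` in `A` is nontrivial
    set A : Subgroup X := zpowers z with hA
    have hAc : Nat.card A = p * q := by rw [hA, Nat.card_zpowers, hoz]
    have hAfix : ∀ x ∈ A, x • S₀ = S₀ := by
      intro x hx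
      obtain ⟨i, rfl⟩ := mem_zpowers_iff.1 hx
      have h1 : z ∈ MulAction.stabilizer X S₀ := hzS
      exact (MulAction.stabilizer X S₀).zpow_mem h1 i
    have hidx : (MulAction.stabilizer A ω).index = (MulAction.orbit A ω).ncard :=
      MulAction.index_stabilizer (G := A) ω
    have horb : (MulAction.orbit A ω).ncard ≤ p * a := by
      have hsub : MulAction.orbit A ω ⊆ (Set.univ \ {S₀}) := by
        rintro _ ⟨x, rfl⟩
        refine ⟨Set.mem_univ _, ?_⟩
        intro h
        apply hω
        have h1 : (x : X) • ω = S₀ := h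
        have h2 : (x : X) • S₀ = S₀ := hAfix x x.2
        have h3 := h1.trans h2.symm
        exact smul_left_cancel _ h3
      have h1 := Set.ncard_le_ncard hsub (Set.toFinite _)
      have h2 : (Set.univ \ {S₀} : Set (Sylow p X)).ncard = p * a := by
        rw [Set.ncard_sdiff (by simp) (by simp), Set.ncard_univ, Set.ncard_singleton,
          Sylow.card_eq_index_normalizer S₀]
        change (normalizer ((S₀ : Subgroup X) : Set X)).index - 1 = p * a
        rw [hn]; omega
      omega
    have hstab : MulAction.stabilizer A ω ≠ ⊥ := by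
      intro h0
      have h1 := Subgroup.card_mul_index (MulAction.stabilizer A ω)
      rw [hidx, h0, Subgroup.card_bot, one_mul, hAc] at h1
      have hp0 := hp.out.pos
      have : p * q ≤ p * a := by omega
      have := Nat.le_of_mul_le_mul_left this hp0
      omega
    obtain ⟨h, hhs, hne⟩ := (MulAction.stabilizer A ω).bot_or_exists_ne_one.resolve_left hstab
    obtain ⟨i, hi⟩ := mem_zpowers_iff.1 h.2
    have hhfix : (h : X) • ω = ω := hhs
    have hne' : (h : X) ≠ 1 := fun e => hne (Subtype.ext e)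
    have hq1 : y ^ (q : ℤ) = 1 := by rw [← hy, zpow_natCast, pow_orderOf_eq_one]
    have hstabX : (h : X) ∈ MulAction.stabilizer X ω := hhfix
    have hk : g ^ (i * q) • ω = ω := by
      have h1 : (h : X) ^ (q : ℤ) ∈ MulAction.stabilizer X ω :=
        (MulAction.stabilizer X ω).zpow_mem hstabX _
      have h2 : (h : X) ^ (q : ℤ) = g ^ (i * q) := by
        rw [← hi, ← zpow_mul, hz, hcomm.mul_zpow, mul_comm i, zpow_mul y, hq1, one_zpow, mul_one]
      rw [h2] at h1
      exact h1
    have hk1 : g ^ (i * q) = 1 := by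
      by_contra hne1
      obtain ⟨u, hu⟩ := zpow_gen hog hne1
      have hgfix : g • ω = ω := by
        have h1 : g ^ (i * q) ∈ MulAction.stabilizer X ω := hk
        have h2 := (MulAction.stabilizer X ω).zpow_mem h1 u
        rw [hu] at h2
        exact h2
      have hSle : (S₀ : Subgroup X) ≤ ω := by
        have hpg : IsPGroup p (S₀ : Subgroup X) := S₀.isPGroup'
        rw [← hpg.sylow_mem_fixedPoints_iff]
        intro x
        have hx := hg' x
        obtain ⟨e, he⟩ := mem_zpowers_iff.1 hx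
        have h1 : g ∈ MulAction.stabilizer X ω := hgfix
        have h2 : (x : X) = g ^ e := by rw [← he]; simp [hgdef]
        have h3 : (x : X) ∈ MulAction.stabilizer X ω := by
          rw [h2]; exact (MulAction.stabilizer X ω).zpow_mem h1 e
        exact h3
      apply hω
      symm
      apply Sylow.ext
      apply Subgroup.eq_of_le_of_card_ge hSle
      rw [sylow_card_prime' hc hm ω, hP]
    have hpi : (p : ℤ) ∣ i := by
      have h1 : (p : ℤ) ∣ i * q := by
        rw [← hog]
        exact orderOf_dvd_iff_zpow_eq_one.2 hk1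
      have h2 : IsCoprime (p : ℤ) (q : ℤ) :=
        Nat.isCoprime_iff_coprime.2 ((Nat.coprime_primes hp.out hq.out).2 hpq)
      exact h2.dvd_of_dvd_mul_right h1
    have hgi : g ^ i = 1 := by
      rw [← orderOf_dvd_iff_zpow_eq_one, hog]
      exact hpi
    have hhy : (h : X) = y ^ i := by
      rw [← hi, hz, hcomm.mul_zpow, hgi, one_mul]
    have hyi : y ^ i ≠ 1 := by rw [← hhy]; exact hne'
    obtain ⟨u, hu⟩ := zpow_gen hy hyi
    have h1 : y ^ i ∈ MulAction.stabilizer X ω := by rw [← hhy]; exact hstabX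
    have h2 := (MulAction.stabilizer X ω).zpow_mem h1 u
    rw [hu] at h2
    exact h2
  -- the kernel of the action
  let f := MulAction.toPermHom X (Sylow p X)
  have hyk : y ∈ f.ker := by
    rw [MonoidHom.mem_ker]
    ext ω : 1
    exact key ω
  rcases IsSimpleGroup.eq_bot_or_eq_top_of_normal f.ker (MonoidHom.normal_ker f) with h | h
  · rw [h, mem_bot] at hyk
    rw [hyk, orderOf_one] at hy
    exact hq.out.one_lt.ne hy
  · apply hnt
    rw [eq_top_iff]
    intro x _
    have hx : x ∈ f.ker := by rw [h]; exact mem_top x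
    rw [MonoidHom.mem_ker] at hx
    have h2 : x • S₀ = S₀ := by
      have := congrArg (fun π : Equiv.Perm (Sylow p X) => π S₀) hx
      exact this
    exact (Sylow.smul_eq_iff_mem_normalizer).1 h2

/-- Fixed point congruence for a centralizing `ℓ`-subgroup with a unique fixed point. -/
theorem fix_mod {Ω : Type*} [Finite Ω] [MulAction X Ω] {l : ℕ} [hl : Fact l.Prime] (b : X)
    (L : Subgroup X) (hL : IsPGroup l L) (hLb : ∀ x ∈ L, x * b = b * x) (ω₀ : Ω)
    (h0 : ∀ x ∈ L, x • ω₀ = ω₀) (hb0 : b • ω₀ = ω₀) (huniq : ∀ ω : Ω, (∀ x ∈ L, x • ω = ω) → ω = ω₀) :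
    Nat.card {ω : Ω // b • ω = ω} ≡ 1 [MOD l] := by
  classical
  let F : SubMulAction L Ω :=
    { carrier := {ω | b • ω = ω}
      smul_mem' := by
        rintro ⟨x, hx⟩ ω (hω : b • ω = ω)
        show b • (x • ω) = x • ω
        rw [← mul_smul, ← hLb x hx, mul_smul, hω] }
  haveI : Finite F := Finite.of_injective (fun z : F => (z : Ω)) Subtype.val_injective
  have h1 := hL.card_modEq_card_fixedPoints F
  have h2 : Nat.card {ω : Ω // b • ω = ω} = Nat.card F := rfl
  rw [h2]
  refine h1.trans ?_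
  have h3 : Nat.card (MulAction.fixedPoints L F) = 1 := by
    rw [Nat.card_eq_one_iff_unique]
    refine ⟨⟨?_⟩, ⟨⟨⟨ω₀, hb0⟩, ?_⟩⟩⟩
    · rintro ⟨⟨a, ha⟩, ha2⟩ ⟨⟨c, hc⟩, hc2⟩
      have e1 : a = ω₀ := huniq a (fun x hx => congrArg (fun z : F => (z : Ω)) (ha2 ⟨x, hx⟩))
      have e2 : c = ω₀ := huniq c (fun x hx => congrArg (fun z : F => (z : Ω)) (hc2 ⟨x, hx⟩))
      subst e1; subst e2; rfl
    · rintro ⟨x, hx⟩
      exact Subtype.ext (h0 x hx)
  rw [h3]

/-- Conjugate elements have the same number of fixed points. -/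
theorem fix_conj {Ω : Type*} [MulAction X Ω] (b g : X) :
    Nat.card {ω : Ω // (g * b * g⁻¹) • ω = ω} = Nat.card {ω : Ω // b • ω = ω} := by
  refine Nat.card_congr ?_
  refine
    { toFun := fun ω => ⟨g⁻¹ • ω.1, ?_⟩
      invFun := fun ω => ⟨g • ω.1, ?_⟩
      left_inv := ?_
      right_inv := ?_ }
  · have h := ω.2
    calc b • (g⁻¹ • ω.1) = g⁻¹ • ((g * b * g⁻¹) • ω.1) := by simp [mul_smul]
      _ = g⁻¹ • ω.1 := by rw [h]
  · have h := ω.2
    calc (g * b * g⁻¹) • (g • ω.1) = g • (b • ω.1) := by simp [mul_smul]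
      _ = g • ω.1 := by rw [h]
  · rintro ⟨ω, _⟩; simp
  · rintro ⟨ω, _⟩; simp

end Gen

end Cfsg.Agent.Lib.U175
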