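import Cfsg.Agent.Lib.U175.Gen2

/-!
# The Sylow 19-normalizer in a simple group of order 175560
-/

set_option autoImplicit false

namespace Cfsg.Agent.Lib.U175

open Subgroup

section Count

variable {X : Type*} [Group X] [Finite X]

/-- The Sylow count inside a subgroup. -/
theorem count_in {p m : ℕ} [hp : Fact p.Prime] (H Q : Subgroup X) (hH : Nat.card H = p * m)
    (hm : ¬ p ∣ m) (hQ : Nat.card Q = p) (hQH : Q ≤ H) :
    ∃ n, n % p = 1 ∧ n * Nat.card (H ⊓ normalizer (Q : Set X) : Subgroup X) = Nat.card H ∧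
      n = Nat.card (Sylow p H) := by
  have hQ' : Nat.card (Q.subgroupOf H) = p := by
    rw [← hQ]
    exact Nat.card_congr (subgroupOfEquivOfLe hQH).toEquiv
  have h3 := index_mod (p := p) hH hm _ hQ'
  refine ⟨_, h3, ?_, ?_⟩
  swap
  · obtain ⟨S, hS⟩ := exists_sylow_eq hH hm _ hQ'
    have e := Sylow.card_eq_index_normalizer S
    rw [e, ← hS]
    rfl
  have h5 := Subgroup.card_mul_index (normalizer (((Q.subgroupOf H : Subgroup H)) : Set H))
  rw [mul_comm, ← h5]
  congr 1
  have h6 : normalizer (((Q.subgroupOf H : Subgroup H)) : Set H) =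
      (H ⊓ normalizer (Q : Set X) : Subgroup X).subgroupOf H := by
    ext ⟨x, hx⟩
    simp only [mem_normalizer_iff, mem_subgroupOf, SetLike.mem_coe, Subgroup.coe_mul,
      Subgroup.coe_inv, mem_inf, Subtype.forall]
    constructor
    · intro h
      refine ⟨hx, fun a => ?_⟩
      constructor
      · intro ha
        exact (h a (hQH ha)).1 ha
      · intro ha
        have hxa : x * a * x⁻¹ ∈ H := hQH ha
        have haH : a ∈ H := by
          have : a = x⁻¹ * (x * a * x⁻¹) * x := by group
          rw [this]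
          exact H.mul_mem (H.mul_mem (H.inv_mem hx) hxa) hx
        exact (h a haH).2 ha
    · rintro ⟨_, h⟩ a _
      exact h a
  rw [h6]
  exact (Nat.card_congr (subgroupOfEquivOfLe inf_le_left).toEquiv).symm

/-- A subgroup of the same cardinality after intersecting. -/
theorem le_of_card_inf {H K : Subgroup X} (h : Nat.card (H ⊓ K : Subgroup X) = Nat.card H) : H ≤ K := by
  have e := Subgroup.eq_of_le_of_card_ge (inf_le_left : H ⊓ K ≤ H) h.ge
  intro x hx
  have h2 : x ∈ H ⊓ K := by rw [e]; exact hx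
  exact h2.2

/-- Normality when the only divisor `≡ 1` is `1`. -/
theorem le_norm_of_div {p m : ℕ} [hp : Fact p.Prime] (H Q : Subgroup X) (hH : Nat.card H = p * m)
    (hm : ¬ p ∣ m) (hm0 : 0 < m) (hQ : Nat.card Q = p) (hQH : Q ≤ H)
    (hdiv : ∀ k ∈ Nat.divisors m, k % p = 1 → k = 1) : H ≤ normalizer (Q : Set X) := by
  obtain ⟨n, hn, hn2, -⟩ := count_in H Q hH hm hQ hQH
  have h6 : p ∣ Nat.card (H ⊓ normalizer (Q : Set X) : Subgroup X) := by
    rw [← hQ]
    exact Subgroup.card_dvd_of_le (le_inf hQH le_normalizer)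
  obtain ⟨c, hc⟩ := h6
  have h7 : n ∣ m := by
    refine ⟨c, ?_⟩
    rw [hc, hH] at hn2
    have : p * (n * c) = p * m := by rw [← hn2]; ring
    exact (Nat.eq_of_mul_eq_mul_left hp.out.pos this).symm
  have h8 := hdiv n (Nat.mem_divisors.2 ⟨h7, hm0.ne'⟩) hn
  subst h8
  rw [one_mul] at hn2
  exact le_of_card_inf hn2

end Count

section Loc

variable {G : Type*} [Group G] [Finite G] [IsSimpleGroup G]

instance fact19 : Fact (Nat.Prime 19) := ⟨by norm_num⟩
instance fact11 : Fact (Nat.Prime 11) := ⟨by norm_num⟩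
instance fact7 : Fact (Nat.Prime 7) := ⟨by norm_num⟩
instance fact5 : Fact (Nat.Prime 5) := ⟨by norm_num⟩
instance fact3 : Fact (Nat.Prime 3) := ⟨by norm_num⟩
instance fact2 : Fact (Nat.Prime 2) := ⟨by norm_num⟩

/-- Data of the action: a trivially acting nonidentity element. -/
theorem ker_triv {p : ℕ} [hp : Fact p.Prime] {y : G} (hy : y ≠ 1) (key : ∀ ω : Sylow p G, y • ω = ω)
    (S₀ : Sylow p G) (hnt : normalizer ((S₀ : Subgroup G) : Set G) ≠ ⊤) : False := by
  let f := MulAction.toPermHom G (Sylow p G)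
  have hyk : y ∈ f.ker := by
    rw [MonoidHom.mem_ker]
    ext ω : 1
    exact key ω
  rcases IsSimpleGroup.eq_bot_or_eq_top_of_normal f.ker (MonoidHom.normal_ker f) with h | h
  · rw [h, mem_bot] at hyk
    exact hy hyk
  · apply hnt
    rw [eq_top_iff]
    intro x _
    have hx : x ∈ f.ker := by rw [h]; exact mem_top x
    rw [MonoidHom.mem_ker] at hx
    have h2 : x • S₀ = S₀ := by
      have := congrArg (fun π : Equiv.Perm (Sylow p G) => π S₀) hx
      exact this
    exact (Sylow.smul_eq_iff_mem_normalizer).1 h2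

theorem fix_even {Ω : Type*} [Finite Ω] [MulAction G Ω] {b : G} (hb : orderOf b = 2) :
    Nat.card {ω : Ω // b • ω = ω} ≡ Nat.card Ω [MOD 2] := by
  have hpg : IsPGroup 2 (zpowers b) := IsPGroup.of_card (n := 1) (by simp [Nat.card_zpowers, hb])
  have h1 := hpg.card_modEq_card_fixedPoints Ω
  have h2 : Nat.card (MulAction.fixedPoints (zpowers b) Ω) = Nat.card {ω : Ω // b • ω = ω} := by
    refine Nat.card_congr (Equiv.subtypeEquivRight ?_)
    intro ω
    rw [MulAction.mem_fixedPoints]
    constructor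
    · intro h
      exact h ⟨b, mem_zpowers b⟩
    · rintro h ⟨x, hx⟩
      obtain ⟨i, rfl⟩ := mem_zpowers_iff.1 hx
      have h3 : b ∈ MulAction.stabilizer G ω := h
      exact (MulAction.stabilizer G ω).zpow_mem h3 i
  rw [h2] at h1
  exact h1.symm

theorem list19 : ∀ n ∈ Nat.divisors 9240, n % 19 = 1 → n = 1 ∨ n = 20 ∨ n = 77 ∨ n = 210 ∨ n = 1540 := by
  decide +kernel

theorem P_ne_bot {p : ℕ} [hp : Fact p.Prime] {P : Subgroup G} (hP : Nat.card P = p) : P ≠ ⊥ := by
  rintro rfl
  rw [Subgroup.card_bot] at hP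
  exact hp.out.one_lt.ne hP

theorem P_ne_top {p : ℕ} (hG : Nat.card G = 175560) (hp : p < 175560) {P : Subgroup G} (hP : Nat.card P = p) :
    P ≠ ⊤ := by
  rintro rfl
  rw [Subgroup.card_top, hG] at hP
  omega

/-- `19 ∤ 9240`. -/
theorem card_norm_eq {p M : ℕ} (hG : Nat.card G = 175560) {P : Subgroup G} {n : ℕ}
    (hn : (normalizer (P : Set G)).index = n) (hM : n * M = 175560) (hn0 : 0 < n) :
    Nat.card (normalizer (P : Set G)) = M := by
  have h := Subgroup.card_mul_index (normalizer (P : Set G))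
  rw [hn, hG] at h
  have : Nat.card (normalizer (P : Set G)) * n = M * n := by rw [h, ← hM]; ring
  exact Nat.eq_of_mul_eq_mul_right hn0 this

theorem list210 : ∀ k ∈ Nat.divisors 210, k % 11 = 1 → k ≠ 1 → k = 210 := by decide +kernel

set_option maxHeartbeats 1000000 in
theorem not_210 (hG : Nat.card G = 175560)
    (h1 : ∀ x y : G, orderOf x = 2 → orderOf y = 2 → ∃ g : G, g * x * g⁻¹ = y)
    (P : Subgroup G) (hP : Nat.card P = 19) (hn : (normalizer (P : Set G)).index = 210) : False := by
  classical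
  have hc19 : Nat.card G = 19 * 9240 := by rw [hG]
  have hm19 : ¬ 19 ∣ 9240 := by norm_num
  -- all normalizers of order-19 subgroups have order 836
  have hNall : ∀ R : Subgroup G, Nat.card R = 19 → Nat.card (normalizer (R : Set G)) = 836 := by
    intro R hR
    obtain ⟨S, rfl⟩ := exists_sylow_eq hc19 hm19 R hR
    have h2 : (normalizer ((S : Subgroup G) : Set G)).index = 210 := by
      obtain ⟨S₀, rfl⟩ := exists_sylow_eq hc19 hm19 P hP
      have e1 := Sylow.card_eq_index_normalizer S₀
      have e2 := Sylow.card_eq_index_normalizer S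
      exact e2.symm.trans (e1.trans hn)
    exact card_norm_eq (p := 19) hG h2 (by norm_num) (by norm_num)
  have hN := hNall P hP
  have hd := card_norm_dvd P hP
  rw [hN] at hd
  -- involution in `C(P)` and an order 11 element
  have h2C : 2 ∣ Nat.card (centralizer (P : Set G)) := by
    have h3 : 4 ∣ Nat.card (centralizer (P : Set G)) * 18 := dvd_trans (by norm_num) hd
    omega
  have h11C : 11 ∣ Nat.card (centralizer (P : Set G)) := by
    have h3 : 11 ∣ Nat.card (centralizer (P : Set G)) * 18 := dvd_trans (by norm_num) hd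
    omega
  obtain ⟨b, hbC, hb⟩ := exists_order_of_dvd (q := 2) _ h2C
  obtain ⟨y, hyC, hy⟩ := exists_order_of_dvd (q := 11) _ h11C
  set Q : Subgroup G := zpowers y with hQdef
  have hQ : Nat.card Q = 11 := by rw [hQdef, Nat.card_zpowers, hy]
  -- `Q` in any `N(R)` is normal
  have hnorm : ∀ R : Subgroup G, Nat.card R = 19 → Q ≤ normalizer (R : Set G) →
      normalizer (R : Set G) ≤ normalizer (Q : Set G) := by
    intro R hR hQR
    have hNR := hNall R hR
    have hc : Nat.card (normalizer (R : Set G)) = 11 * 76 := by rw [hNR]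
    exact le_norm_of_div _ Q hc (by norm_num) (by norm_num) hQ hQR (by decide +kernel)
  have hQN : Q ≤ normalizer (P : Set G) := by
    rw [hQdef, zpowers_le]
    exact centralizer_le_normalizer _ hyC
  have hNQ : Nat.card (normalizer (Q : Set G)) = 836 := by
    have hle := hnorm P hP hQN
    obtain ⟨c, hc⟩ := Subgroup.card_dvd_of_le hle
    rw [hN] at hc
    have h3 := index_mod (p := 11) (m := 15960) (by rw [hG]) (by norm_num) Q hQ
    have h4 := Subgroup.card_mul_index (normalizer (Q : Set G))
    rw [hc, hG] at h4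
    have h5 : (normalizer (Q : Set G)).index ∣ 210 := by
      refine ⟨c, ?_⟩
      have : 836 * (c * (normalizer (Q : Set G)).index) = 836 * 210 := by rw [← mul_assoc, h4]
      have := Nat.eq_of_mul_eq_mul_left (by norm_num) this
      rw [← this]; ring
    have h6 : (normalizer (Q : Set G)).index ≠ 1 := by
      intro h7
      exact norm_ne_top Q (P_ne_bot hQ) (P_ne_top hG (by norm_num) hQ) (Subgroup.index_eq_one.1 h7)
    have h7 : (normalizer (Q : Set G)).index = 210 := by
      exact list210 _ (Nat.mem_divisors.2 ⟨h5, by norm_num⟩) h3 h6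
    exact card_norm_eq (p := 11) hG h7 (by norm_num) (by norm_num)
  have hNeq : ∀ R : Subgroup G, Nat.card R = 19 → Q ≤ normalizer (R : Set G) →
      normalizer (R : Set G) = normalizer (Q : Set G) := by
    intro R hR hQR
    apply Subgroup.eq_of_le_of_card_ge (hnorm R hR hQR)
    rw [hNQ, hNall R hR]
  have hNPQ := hNeq P hP hQN
  -- `C(Q)` contains an involution
  have hdQ := card_norm_dvd Q hQ
  rw [hNQ] at hdQ
  have h2Q : 2 ∣ Nat.card (centralizer (Q : Set G)) := by
    have h3 : 4 ∣ Nat.card (centralizer (Q : Set G)) * 10 := dvd_trans (by norm_num) hdQ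
    omega
  obtain ⟨b', hb'C, hb'⟩ := exists_order_of_dvd (q := 2) _ h2Q
  -- fixed points
  obtain ⟨S₀, hS₀⟩ := exists_sylow_eq hc19 hm19 P hP
  have hsmul : ∀ x : G, x ∈ normalizer (P : Set G) → x • S₀ = S₀ := by
    intro x hx
    apply (Sylow.smul_eq_iff_mem_normalizer).2
    rw [← hS₀] at hx; exact hx
  have hmemN : ∀ x : G, ∀ ω : Sylow 19 G, x • ω = ω → x ∈ normalizer (((ω : Subgroup G)) : Set G) :=
    fun x ω h => (Sylow.smul_eq_iff_mem_normalizer).1 h
  have hfP : Nat.card {ω : Sylow 19 G // b • ω = ω} ≡ 1 [MOD 19] := by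
    apply fix_mod (l := 19) b P (IsPGroup.of_card (n := 1) (by simpa using hP)) _ S₀
    · intro x hx
      exact hsmul x (le_normalizer hx)
    · exact hsmul b (centralizer_le_normalizer _ hbC)
    · intro ω hω
      have hle : P ≤ ω := by
        have hpg : IsPGroup 19 P := IsPGroup.of_card (n := 1) (by simpa using hP)
        rw [← hpg.sylow_mem_fixedPoints_iff]
        rintro ⟨x, hx⟩
        exact hω x hx
      apply Sylow.ext
      rw [hS₀]
      symm
      apply Subgroup.eq_of_le_of_card_ge hle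
      rw [sylow_card_prime' hc19 hm19 ω, hP]
    · intro x hx
      exact ((mem_centralizer_iff.1 hbC) x hx)
  have hfQ : Nat.card {ω : Sylow 19 G // b' • ω = ω} ≡ 1 [MOD 11] := by
    apply fix_mod (l := 11) b' Q (IsPGroup.of_card (n := 1) (by simpa using hQ)) _ S₀
    · intro x hx
      exact hsmul x (hQN hx)
    · apply hsmul
      rw [hNPQ]
      exact centralizer_le_normalizer _ hb'C
    · intro ω hω
      have hω' : Q ≤ normalizer (((ω : Subgroup G)) : Set G) := fun x hx => hmemN x ω (hω x hx)
      have h3 := hNeq ω (sylow_card_prime' hc19 hm19 ω) hω'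
      have h4 : normalizer (((ω : Subgroup G)) : Set G) = normalizer (P : Set G) := h3.trans hNPQ.symm
      have h5 : (ω : Subgroup G) ≤ normalizer (P : Set G) := by
        rw [← h4]; exact le_normalizer
      have hpg : IsPGroup 19 (ω : Subgroup G) := ω.isPGroup'
      have h6 : S₀ ∈ MulAction.fixedPoints (ω : Subgroup G) (Sylow 19 G) := by
        rintro ⟨x, hx⟩
        exact hsmul x (h5 hx)
      have h7 : (ω : Subgroup G) ≤ S₀ := hpg.sylow_mem_fixedPoints_iff.1 h6
      apply Sylow.ext
      apply Subgroup.eq_of_le_of_card_ge h7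
      rw [sylow_card_prime' hc19 hm19 ω, sylow_card_prime' hc19 hm19 S₀]
    · intro x hx
      exact ((mem_centralizer_iff.1 hb'C) x hx)
  obtain ⟨g, hg⟩ := h1 b b' hb hb'
  have hconj : Nat.card {ω : Sylow 19 G // b' • ω = ω} = Nat.card {ω : Sylow 19 G // b • ω = ω} := by
    rw [← hg]; exact fix_conj b g
  rw [hconj] at hfQ
  have hev := fix_even (Ω := Sylow 19 G) hb
  have hΩ : Nat.card (Sylow 19 G) = 210 := by
    rw [Sylow.card_eq_index_normalizer S₀]
    rw [← hn, ← hS₀]
    rfl
  rw [hΩ] at hev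
  have hle : Nat.card {ω : Sylow 19 G // b • ω = ω} ≤ 210 := by
    rw [← hΩ]
    exact Nat.card_le_card_of_injective _ Subtype.val_injective
  have hall : Nat.card {ω : Sylow 19 G // b • ω = ω} = 210 := by
    generalize Nat.card {ω : Sylow 19 G // b • ω = ω} = f at hfP hfQ hev hle ⊢
    have a1 : f % 19 = 1 % 19 := hfP
    have a2 : f % 11 = 1 % 11 := hfQ
    have a3 : f % 2 = 210 % 2 := hev
    omega
  have hfin : ∀ ω : Sylow 19 G, b • ω = ω := by
    by_contra hne
    push Not at hne
    obtain ⟨ω, hω⟩ := hne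
    have : Nat.card {ω : Sylow 19 G // b • ω = ω} < Nat.card (Sylow 19 G) := by
      haveI : Finite (Sylow 19 G) := inferInstance
      exact Finite.card_subtype_lt (p := fun ω : Sylow 19 G => b • ω = ω) (x := ω) hω
    omega
  have hb1 : b ≠ 1 := by
    rintro rfl
    rw [orderOf_one] at hb
    omega
  refine ker_triv hb1 hfin S₀ ?_
  rw [hS₀]
  exact norm_ne_top P (P_ne_bot hP) (P_ne_top hG (by norm_num) hP)

theorem norm19 (hG : Nat.card G = 175560)
    (h1 : ∀ x y : G, orderOf x = 2 → orderOf y = 2 → ∃ g : G, g * x * g⁻¹ = y)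
    (P : Subgroup G) (hP : Nat.card P = 19) : Nat.card (normalizer (P : Set G)) = 114 := by
  classical
  have hc19 : Nat.card G = 19 * 9240 := by rw [hG]
  have hm19 : ¬ 19 ∣ 9240 := by norm_num
  have hmod := index_mod hc19 hm19 P hP
  have h19 : 19 ∣ Nat.card (normalizer (P : Set G)) := by
    rw [← hP]; exact Subgroup.card_dvd_of_le le_normalizer
  obtain ⟨M, hM⟩ := h19
  have h4 := Subgroup.card_mul_index (normalizer (P : Set G))
  rw [hM, hG] at h4
  have h5 : (normalizer (P : Set G)).index ∣ 9240 := by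
    refine ⟨M, ?_⟩
    have : 19 * (M * (normalizer (P : Set G)).index) = 19 * 9240 := by rw [← mul_assoc, h4]
    have := Nat.eq_of_mul_eq_mul_left (by norm_num) this
    rw [← this]; ring
  have h6 := list19 _ (Nat.mem_divisors.2 ⟨h5, by norm_num⟩) hmod
  have hnt := norm_ne_top P (P_ne_bot hP) (P_ne_top hG (by norm_num) hP)
  have hd := card_norm_dvd P hP
  rcases h6 with h | h | h | h | h
  · exact absurd (Subgroup.index_eq_one.1 h) hnt
  · exfalso
    have hN : Nat.card (normalizer (P : Set G)) = 8778 := card_norm_eq (p := 19) hG h (by norm_num) (by norm_num)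
    rw [hN] at hd
    have h7 : 7 ∣ Nat.card (centralizer (P : Set G)) := by
      have h3 : 7 ∣ Nat.card (centralizer (P : Set G)) * 18 := dvd_trans (by norm_num) hd
      omega
    obtain ⟨y, hyC, hy⟩ := exists_order_of_dvd (q := 7) _ h7
    exact comm_fix (p := 19) (q := 7) (a := 1) hc19 hm19 (by norm_num) P hP h (by norm_num) hnt hy hyC
  · exfalso
    have hN : Nat.card (normalizer (P : Set G)) = 2280 := card_norm_eq (p := 19) hG h (by norm_num) (by norm_num)
    rw [hN] at hd
    have h7 : 5 ∣ Nat.card (centralizer (P : Set G)) := by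
      have h3 : 5 ∣ Nat.card (centralizer (P : Set G)) * 18 := dvd_trans (by norm_num) hd
      omega
    obtain ⟨y, hyC, hy⟩ := exists_order_of_dvd (q := 5) _ h7
    exact comm_fix (p := 19) (q := 5) (a := 4) hc19 hm19 (by norm_num) P hP h (by norm_num) hnt hy hyC
  · exact (not_210 hG h1 P hP h).elim
  · exact card_norm_eq (p := 19) hG h (by norm_num) (by norm_num)

end Loc

end Cfsg.Agent.Lib.U175
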